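import Cfsg.Agent.H336.LinFour.Basic
import Cfsg.Agent.H336.LinFour.Equiv

/-!
# S1918, sporadic row: the order of the centralisers of the elements of `A` (helper207)

* `dvd_cent` : `21504 ∣ |C_K(th v)|`;
* `false_of_cent` : no 2-central involution has a centraliser of order prime to `7`.
-/

set_option autoImplicit false

namespace Cfsg.Agent.H207.LinFour

open Subgroup Cfsg.Agent.H336.LinFour

variable {K : Type*} [Group K] {th : V → K} {O K0 : Subgroup K}

theorem card_ne_zero : Nat.card { v : V // v ≠ 0 } = 15 := by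
  rw [Nat.card_eq_fintype_card, Fintype.card_subtype_compl, Fintype.card_subtype_eq]
  have : Fintype.card V = 16 := by simp [V]
  rw [this]

/-- the centraliser of `th a` in the normaliser of `A` -/
theorem dvd_card_inf [Finite K] (h : Sit th O K0) {a : V} (ha : a ≠ 0) :
    21504 ∣ Nat.card (normalizer (h.A : Set K) ⊓ centralizer {th a} : Subgroup K) := by
  set N := normalizer (h.A : Set K) with hN
  let act : MulAction N K :=
    { smul := fun n x => n.1 * x * n.1⁻¹
      one_smul := fun x => by show (1 : K) * x * 1⁻¹ = x; group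
      mul_smul := fun m n x => by
        show (m.1 * n.1) * x * (m.1 * n.1)⁻¹ = m.1 * (n.1 * x * n.1⁻¹) * m.1⁻¹; group }
  have hs : ∀ (n : N) (x : K), n • x = n.1 * x * n.1⁻¹ := fun _ _ => rfl
  have horb : MulAction.orbit N (th a) = th '' {v | v ≠ 0} := by
    ext x
    constructor
    · rintro ⟨n, rfl⟩
      obtain ⟨u, hu⟩ := h.mem_normalizer.1 n.2 a
      refine ⟨u, ?_, hu.symm⟩
      rintro rfl
      have hu' : n.1 * th a * n.1⁻¹ = 1 := by rw [hu, h.zero]
      have : th a = 1 := by
        rw [mul_inv_eq_one] at hu'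
        exact mul_left_cancel (hu'.trans (mul_one _).symm)
      exact ha ((h.eq_one_iff a).1 this)
    · rintro ⟨v, hv, rfl⟩
      obtain ⟨k, hk, hk'⟩ := h.exists_conj ha hv
      exact ⟨⟨k, h.K0_le hk⟩, hk'⟩
  have h2 : Nat.card (MulAction.orbit N (th a)) = 15 := by
    rw [horb, Nat.card_coe_set_eq, Set.ncard_image_of_injective _ h.inj, ← Nat.card_coe_set_eq]
    exact card_ne_zero
  have h3 : Nat.card (MulAction.stabilizer N (th a)) = Nat.card (N ⊓ centralizer {th a} : Subgroup K) := by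
    refine Nat.card_congr ⟨fun n => ⟨n.1.1, n.1.2, ?_⟩, fun n => ⟨⟨n.1, n.2.1⟩, ?_⟩, fun _ => rfl, fun _ => rfl⟩
    · refine mem_centralizer_singleton_iff.2 ?_
      have h4 : n.1.1 * th a * n.1.1⁻¹ = th a := n.2
      exact (eq_mul_inv_iff_mul_eq.1 h4.symm).symm
    · rw [MulAction.mem_stabilizer_iff, hs, mem_centralizer_singleton_iff.1 n.2.2, mul_inv_cancel_right]
  have h5 : Nat.card (MulAction.orbit N (th a)) * Nat.card (MulAction.stabilizer N (th a)) = Nat.card N := by
    have := Nat.card_congr (MulAction.orbitProdStabilizerEquivGroup N (th a))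
    rwa [Nat.card_prod] at this
  rw [h2, h3] at h5
  have h6 := h.card_dvd_normalizer
  rw [← hN, ← h5] at h6
  exact Nat.dvd_of_mul_dvd_mul_left (k := 15) (by norm_num) (by
    rw [show 15 * 21504 = 20160 * 16 from by norm_num]; exact h6)

theorem dvd_cent [Finite K] (h : Sit th O K0) {a : V} (ha : a ≠ 0) :
    21504 ∣ Nat.card (centralizer ({th a} : Set K)) :=
  (dvd_card_inf h ha).trans (Subgroup.card_dvd_of_le inf_le_right)

theorem card_cent_conj (g x : K) :
    Nat.card (centralizer ({g * x * g⁻¹} : Set K)) = Nat.card (centralizer ({x} : Set K)) := by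
  refine Nat.card_congr ⟨fun y => ⟨g⁻¹ * y.1 * g, ?_⟩, fun y => ⟨g * y.1 * g⁻¹, ?_⟩, fun y => ?_, fun y => ?_⟩
  · rw [mem_centralizer_singleton_iff]
    have := mem_centralizer_singleton_iff.1 y.2
    calc g⁻¹ * y.1 * g * x = g⁻¹ * (y.1 * (g * x * g⁻¹)) * g := by group
      _ = g⁻¹ * (g * x * g⁻¹ * y.1) * g := by rw [this]
      _ = _ := by group
  · rw [mem_centralizer_singleton_iff]
    have := mem_centralizer_singleton_iff.1 y.2
    calc g * y.1 * g⁻¹ * (g * x * g⁻¹) = g * (y.1 * x) * g⁻¹ := by group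
      _ = g * (x * y.1) * g⁻¹ := by rw [this]
      _ = _ := by group
  · apply Subtype.ext
    change g * (g⁻¹ * y.1 * g) * g⁻¹ = y.1
    group
  · apply Subtype.ext
    change g⁻¹ * (g * y.1 * g⁻¹) * g = y.1
    group

theorem exists_ne : ∃ v : V, v ≠ 0 := ⟨Pi.single 0 1, by decide⟩

/-- the centraliser of a 2-central involution has order divisible by `21504` -/
theorem dvd_of_odd [Finite K] (h : Sit th O K0) {z : K} (hz : z * z = 1) (hz1 : z ≠ 1)
    (hi : ¬ 2 ∣ (centralizer ({z} : Set K)).index) : 21504 ∣ Nat.card (centralizer ({z} : Set K)) := by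
  obtain ⟨v, hv⟩ := exists_ne
  obtain ⟨g, hg⟩ := h.exists_conj_of_odd_index hz1 (n := 1) (by rw [pow_one, pow_two]; exact hz) hi hv
  have := dvd_cent h hv
  rwa [← hg, card_cent_conj] at this

theorem false_of_cent [Finite K] (h : Sit th O K0) {z : K} (hz : z * z = 1) (hz1 : z ≠ 1) (N c : ℕ)
    (hN : Nat.card K = N) (hc : Nat.card (centralizer ({z} : Set K)) = c) (h2 : ¬ 2 * c ∣ N) (h7 : ¬ 21504 ∣ c) :
    False := by
  refine h7 (hc ▸ dvd_of_odd h hz hz1 ?_)
  rintro ⟨j, hj⟩
  apply h2
  rw [← hN, ← hc, ← (centralizer ({z} : Set K)).card_mul_index, hj]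
  exact ⟨j, by ring⟩

end Cfsg.Agent.H207.LinFour
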